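import Cfsg.Agent.Lib.Helper35.JR.Defs

/-!
# Project JR (S3206): package [MULT]

No perfect central 2-extension of a group with elementary abelian Sylow 2-subgroups of order 8
whose normalizer is transitive on the involutions.
-/

set_option autoImplicit false
set_option linter.style.haveILetI false

namespace Cfsg.Agent.Lib.Helper38.JR

open Cfsg.Agent.Lib.Helper35.JR

universe u

section form

variable {L : Type} [Group L]

/-- A character of the centre, extended by `1`. -/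
noncomputable def chiX (χ : ↥(Subgroup.center L) →* ℂˣ) (g : L) : ℂˣ :=
  open Classical in if h : g ∈ Subgroup.center L then χ ⟨g, h⟩ else 1

theorem chiX_mul (χ : ↥(Subgroup.center L) →* ℂˣ) {g g' : L} (h : g ∈ Subgroup.center L)
    (h' : g' ∈ Subgroup.center L) : chiX χ (g * g') = chiX χ g * chiX χ g' := by
  unfold chiX
  rw [dif_pos h, dif_pos h', dif_pos (Subgroup.mul_mem _ h h'), ← map_mul]
  rfl

theorem chiX_one (χ : ↥(Subgroup.center L) →* ℂˣ) : chiX χ (1 : L) = 1 := by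
  unfold chiX
  rw [dif_pos (Subgroup.one_mem _)]
  exact map_one χ

/-- The commutator. -/
def cm (u v : L) : L := u * v * u⁻¹ * v⁻¹

theorem cm_mul_left (u u' v : L) (h : cm u' v ∈ Subgroup.center L) :
    cm (u * u') v = cm u v * cm u' v := by
  have hc := Subgroup.mem_center_iff.mp h (v * u⁻¹ * v⁻¹)
  unfold cm at hc ⊢
  calc u * u' * v * (u * u')⁻¹ * v⁻¹
      = u * ((u' * v * u'⁻¹ * v⁻¹) * (v * u⁻¹ * v⁻¹)) := by group
    _ = u * ((v * u⁻¹ * v⁻¹) * (u' * v * u'⁻¹ * v⁻¹)) := by rw [hc]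
    _ = u * v * u⁻¹ * v⁻¹ * (u' * v * u'⁻¹ * v⁻¹) := by group

theorem cm_mul_right (u v v' : L) (h : cm u v' ∈ Subgroup.center L) :
    cm u (v * v') = cm u v * cm u v' := by
  have hc := Subgroup.mem_center_iff.mp h v⁻¹
  unfold cm at hc ⊢
  calc u * (v * v') * u⁻¹ * (v * v')⁻¹
      = u * v * u⁻¹ * ((u * v' * u⁻¹ * v'⁻¹) * v⁻¹) := by group
    _ = u * v * u⁻¹ * (v⁻¹ * (u * v' * u⁻¹ * v'⁻¹)) := by rw [hc]
    _ = u * v * u⁻¹ * v⁻¹ * (u * v' * u⁻¹ * v'⁻¹) := by group

theorem cm_conj (g u v : L) (h : cm u (g⁻¹ * v * g) ∈ Subgroup.center L) :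
    cm (g * u * g⁻¹) v = cm u (g⁻¹ * v * g) := by
  have hc := Subgroup.mem_center_iff.mp h g
  have h1 : cm (g * u * g⁻¹) v = g * cm u (g⁻¹ * v * g) * g⁻¹ := by
    unfold cm; group
  rw [h1, hc, mul_inv_cancel_right]

theorem cm_self (u : L) : cm u u = 1 := by unfold cm; group

theorem cm_one_left (v : L) : cm 1 v = 1 := by unfold cm; group

theorem cm_one_right (u : L) : cm u 1 = 1 := by unfold cm; group

theorem cm_swap (u v : L) : cm v u = (cm u v)⁻¹ := by unfold cm; group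

theorem cm_central_left {z : L} (hz : z ∈ Subgroup.center L) (v : L) : cm z v = 1 := by
  have hc := Subgroup.mem_center_iff.mp hz v
  unfold cm
  rw [← hc]; group

theorem cm_central_right {z : L} (hz : z ∈ Subgroup.center L) (u : L) : cm u z = 1 := by
  have hc := Subgroup.mem_center_iff.mp hz u
  unfold cm
  rw [hc]; group

end form

/-- A subgroup of a group of order 8 with five distinct elements is everything. -/
theorem eq_of_five {G : Type u} [Group G] [Finite G] (S T : Subgroup G) (hle : T ≤ S)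
    (hcard : Nat.card ↥S = 8) (a₁ a₂ a₃ a₄ a₅ : G)
    (h₁ : a₁ ∈ T) (h₂ : a₂ ∈ T) (h₃ : a₃ ∈ T) (h₄ : a₄ ∈ T) (h₅ : a₅ ∈ T)
    (h₁₂ : a₁ ≠ a₂) (h₁₃ : a₁ ≠ a₃) (h₁₄ : a₁ ≠ a₄) (h₁₅ : a₁ ≠ a₅) (h₂₃ : a₂ ≠ a₃)
    (h₂₄ : a₂ ≠ a₄) (h₂₅ : a₂ ≠ a₅) (h₃₄ : a₃ ≠ a₄) (h₃₅ : a₃ ≠ a₅) (h₄₅ : a₄ ≠ a₅) :
    T = S := by
  have hdvd : Nat.card ↥T ∣ 8 := hcard ▸ Subgroup.card_dvd_of_le hle
  have h5 : 5 ≤ Nat.card ↥T := by
    have hinj : Function.Injective
        (![⟨a₁, h₁⟩, ⟨a₂, h₂⟩, ⟨a₃, h₃⟩, ⟨a₄, h₄⟩, ⟨a₅, h₅⟩] : Fin 5 → ↥T) := by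
      intro i j hij
      fin_cases i <;> fin_cases j <;> simp_all
    have := Nat.card_le_card_of_injective _ hinj
    simpa using this
  have h8 : Nat.card ↥T = 8 := by
    have hle8 : Nat.card ↥T ≤ 8 := Nat.le_of_dvd (by norm_num) hdvd
    interval_cases (Nat.card ↥T) <;> omega
  exact Subgroup.eq_of_le_of_card_ge hle (by rw [hcard, h8])

theorem units_sq {w : ℂˣ} (hw : w ^ 2 = 1) : w = 1 ∨ w = -1 := by
  have h1 : (w : ℂ) * (w : ℂ) = 1 := by
    have := congrArg Units.val hw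
    simpa [sq] using this
  rcases mul_self_eq_one_iff.mp h1 with h | h
  · left; exact Units.ext h
  · right; exact Units.ext (by simpa using h)

/-- The commutator form is trivial. -/
theorem form_trivial {G : Type u} [Group G] [Finite G] {L : Type} [Group L] (π : L →* G)
    (hsurj : Function.Surjective π) (Z : Subgroup L) (hker : ∀ g : L, π g = 1 ↔ g ∈ Z)
    (hZc : Z ≤ Subgroup.center L) (S : Sylow 2 G) (hcard : Nat.card ↥(S : Subgroup G) = 8)
    (hexp : ∀ x ∈ (S : Subgroup G), x ^ 2 = 1)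
    (hFus : ∀ s ∈ (S : Subgroup G), s ≠ 1 → ∀ s' ∈ (S : Subgroup G), s' ≠ 1 →
      ∃ n ∈ Subgroup.normalizer ((S : Subgroup G) : Set G), n * s * n⁻¹ = s')
    (χ : ↥(Subgroup.center L) →* ℂˣ) (x y : L) (hx : π x ∈ (S : Subgroup G))
    (hy : π y ∈ (S : Subgroup G)) : chiX χ (cm x y) = 1 := by
  classical
  -- `S` is abelian
  have hSab : ∀ a ∈ (S : Subgroup G), ∀ b ∈ (S : Subgroup G), a * b = b * a := by
    intro a ha b hb
    have h1 := hexp a ha
    have h2 := hexp b hb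
    have h3 := hexp (a * b) (mul_mem ha hb)
    have ha' : a⁻¹ = a := by rw [inv_eq_iff_mul_eq_one, ← sq, h1]
    have hb' : b⁻¹ = b := by rw [inv_eq_iff_mul_eq_one, ← sq, h2]
    have h4 : (a * b)⁻¹ = a * b := by rw [inv_eq_iff_mul_eq_one, ← sq, h3]
    rw [← h4, mul_inv_rev, ha', hb']
  -- commutators of elements over `S` are in `Z`
  have hcmZ : ∀ u v : L, π u ∈ (S : Subgroup G) → π v ∈ (S : Subgroup G) → cm u v ∈ Z := by
    intro u v hu hv
    rw [← hker]
    unfold cm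
    rw [map_mul, map_mul, map_mul, map_inv, map_inv, hSab _ hu _ hv]
    group
  have hcen : ∀ u v : L, π u ∈ (S : Subgroup G) → π v ∈ (S : Subgroup G) →
      cm u v ∈ Subgroup.center L := fun u v hu hv => hZc (hcmZ u v hu hv)
  have hSmul : ∀ u v : L, π u ∈ (S : Subgroup G) → π v ∈ (S : Subgroup G) →
      π (u * v) ∈ (S : Subgroup G) := fun u v hu hv => by rw [map_mul]; exact mul_mem hu hv
  have hSinv : ∀ u : L, π u ∈ (S : Subgroup G) → π u⁻¹ ∈ (S : Subgroup G) :=
    fun u hu => by rw [map_inv]; exact inv_mem hu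
  have hZS : ∀ z : L, z ∈ Z → π z ∈ (S : Subgroup G) := fun z hz => by
    rw [(hker z).mpr hz]; exact one_mem _
  -- the form
  obtain ⟨b, hb⟩ : ∃ b : L → L → ℂˣ, b = fun u v => chiX χ (cm u v) := ⟨_, rfl⟩
  have B1 : ∀ u u' v : L, π u ∈ (S : Subgroup G) → π u' ∈ (S : Subgroup G) →
      π v ∈ (S : Subgroup G) → b (u * u') v = b u v * b u' v := by
    intro u u' v hu hu' hv
    rw [hb]
    show chiX χ (cm (u * u') v) = chiX χ (cm u v) * chiX χ (cm u' v)
    rw [cm_mul_left u u' v (hcen u' v hu' hv), chiX_mul χ (hcen u v hu hv) (hcen u' v hu' hv)]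
  have B2 : ∀ u v v' : L, π u ∈ (S : Subgroup G) → π v ∈ (S : Subgroup G) →
      π v' ∈ (S : Subgroup G) → b u (v * v') = b u v * b u v' := by
    intro u v v' hu hv hv'
    rw [hb]
    show chiX χ (cm u (v * v')) = chiX χ (cm u v) * chiX χ (cm u v')
    rw [cm_mul_right u v v' (hcen u v' hu hv'), chiX_mul χ (hcen u v hu hv) (hcen u v' hu hv')]
  have B3 : ∀ u : L, b u u = 1 := by
    intro u; rw [hb]; show chiX χ (cm u u) = 1; rw [cm_self, chiX_one]
  have B0 : ∀ v : L, b 1 v = 1 := by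
    intro v; rw [hb]; show chiX χ (cm 1 v) = 1; rw [cm_one_left, chiX_one]
  have B0' : ∀ u : L, b u 1 = 1 := by
    intro u; rw [hb]; show chiX χ (cm u 1) = 1; rw [cm_one_right, chiX_one]
  have B4 : ∀ z v : L, z ∈ Z → b z v = 1 := by
    intro z v hz; rw [hb]; show chiX χ (cm z v) = 1; rw [cm_central_left (hZc hz), chiX_one]
  have B4' : ∀ u z : L, z ∈ Z → b u z = 1 := by
    intro u z hz; rw [hb]; show chiX χ (cm u z) = 1; rw [cm_central_right (hZc hz), chiX_one]
  have B5 : ∀ u v : L, π u ∈ (S : Subgroup G) → π v ∈ (S : Subgroup G) →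
      b v u = (b u v)⁻¹ := by
    intro u v hu hv
    have h1 := B1 v v⁻¹ u hv (hSinv v hv) hu
    have h2 := B2 v u u⁻¹ hv hu (hSinv u hu)
    rw [hb] at h1 h2 ⊢
    show chiX χ (cm v u) = (chiX χ (cm u v))⁻¹
    rw [cm_swap u v]
    have h3 : chiX χ (cm u v * (cm u v)⁻¹) = chiX χ (cm u v) * chiX χ (cm u v)⁻¹ :=
      chiX_mul χ (hcen u v hu hv) (Subgroup.inv_mem _ (hcen u v hu hv))
    rw [mul_inv_cancel, chiX_one] at h3
    exact eq_inv_of_mul_eq_one_right h3.symm
  have Binv : ∀ u v : L, π u ∈ (S : Subgroup G) → π v ∈ (S : Subgroup G) →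
      b u⁻¹ v = (b u v)⁻¹ := by
    intro u v hu hv
    have h1 := B1 u⁻¹ u v (hSinv u hu) hu hv
    rw [inv_mul_cancel, B0] at h1
    exact eq_inv_of_mul_eq_one_left h1.symm
  have B6 : ∀ u v : L, π u ∈ (S : Subgroup G) → π v ∈ (S : Subgroup G) →
      b u v ^ 2 = 1 := by
    intro u v hu hv
    have h1 := B1 u u v hu hu hv
    have h2 : u * u ∈ Z := by
      rw [← hker, map_mul, ← sq]; exact hexp _ hu
    rw [B4 _ v h2] at h1
    rw [sq]; exact h1.symm
  have B8 : ∀ u u' v : L, π u ∈ (S : Subgroup G) → π v ∈ (S : Subgroup G) → π u = π u' →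
      b u v = b u' v := by
    intro u u' v hu hv huu
    have h1 : u⁻¹ * u' ∈ Z := by
      rw [← hker, map_mul, map_inv, huu, inv_mul_cancel]
    have h2 := B1 u (u⁻¹ * u') v hu (hZS _ h1) hv
    rw [mul_inv_cancel_left, B4 _ v h1, mul_one] at h2
    exact h2.symm
  have B8' : ∀ u v v' : L, π u ∈ (S : Subgroup G) → π v ∈ (S : Subgroup G) → π v = π v' →
      b u v = b u v' := by
    intro u v v' hu hv hvv
    have h1 : v⁻¹ * v' ∈ Z := by
      rw [← hker, map_mul, map_inv, hvv, inv_mul_cancel]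
    have h2 := B2 u v (v⁻¹ * v') hu hv (hZS _ h1)
    rw [mul_inv_cancel_left, B4' u _ h1, mul_one] at h2
    exact h2.symm
  -- suppose the form is not trivial at `(x, y)`
  by_contra hxy
  have hbxy : b x y ≠ 1 := by rw [hb]; exact hxy
  have hbyx : b y x ≠ 1 := by
    rw [B5 x y hx hy]; simpa using hbxy
  -- a nontrivial element orthogonal to `x` and `y`
  choose lift hlift using hsurj
  haveI : Fintype ↥(S : Subgroup G) := Fintype.ofFinite _
  have hcardS : Fintype.card ↥(S : Subgroup G) = 8 := by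
    rw [← Nat.card_eq_fintype_card]; exact hcard
  obtain ⟨s₁, -, s₂, -, hne, heq⟩ :=
    Finset.exists_ne_map_eq_of_card_lt_of_maps_to
      (s := (Finset.univ : Finset ↥(S : Subgroup G)))
      (t := ({1, -1} : Finset ℂˣ) ×ˢ ({1, -1} : Finset ℂˣ))
      (f := fun s => (b (lift s.1) x, b (lift s.1) y))
      (by
        rw [Finset.card_product, Finset.card_univ, hcardS]
        have h2 : ({1, -1} : Finset ℂˣ).card ≤ 2 := Finset.card_le_two
        nlinarith)
      (by
        intro s _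
        have hs : π (lift s.1) ∈ (S : Subgroup G) := by rw [hlift]; exact s.2
        apply Finset.mem_coe.mpr
        apply Finset.mem_product.mpr
        constructor
        · show b (lift s.1) x ∈ ({1, -1} : Finset ℂˣ)
          rw [Finset.mem_insert, Finset.mem_singleton]
          exact units_sq (B6 _ _ hs hx)
        · show b (lift s.1) y ∈ ({1, -1} : Finset ℂˣ)
          rw [Finset.mem_insert, Finset.mem_singleton]
          exact units_sq (B6 _ _ hs hy))
  have hl₁ : π (lift s₁.1) ∈ (S : Subgroup G) := by rw [hlift]; exact s₁.2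
  have hl₂ : π (lift s₂.1) ∈ (S : Subgroup G) := by rw [hlift]; exact s₂.2
  obtain ⟨r, hr⟩ : ∃ r : L, r = lift s₁.1 * (lift s₂.1)⁻¹ := ⟨_, rfl⟩
  have hrS : π r ∈ (S : Subgroup G) := by rw [hr]; exact hSmul _ _ hl₁ (hSinv _ hl₂)
  have hr1 : π r ≠ 1 := by
    rw [hr, map_mul, map_inv, hlift, hlift]
    intro h
    exact hne (Subtype.ext (mul_inv_eq_one.mp h))
  have hrx : b r x = 1 := by
    have h1 := congrArg Prod.fst heq
    simp only at h1
    rw [hr, B1 _ _ x hl₁ (hSinv _ hl₂) hx, Binv _ x hl₂ hx, h1, mul_inv_cancel]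
  have hry : b r y = 1 := by
    have h1 := congrArg Prod.snd heq
    simp only at h1
    rw [hr, B1 _ _ y hl₁ (hSinv _ hl₂) hy, Binv _ y hl₂ hy, h1, mul_inv_cancel]
  -- `r` is in the radical
  have hrad : ∀ v : L, π v ∈ (S : Subgroup G) → b r v = 1 := by
    obtain ⟨T, hT⟩ : ∃ T : Subgroup L, ∀ v, v ∈ T ↔ π v ∈ (S : Subgroup G) ∧ b r v = 1 :=
      ⟨{ carrier := {v | π v ∈ (S : Subgroup G) ∧ b r v = 1}
         mul_mem' := by
           rintro v v' ⟨hv, hbv⟩ ⟨hv', hbv'⟩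
           exact ⟨hSmul v v' hv hv', by rw [B2 r v v' hrS hv hv', hbv, hbv', mul_one]⟩
         one_mem' := ⟨by rw [map_one]; exact one_mem _, B0' r⟩
         inv_mem' := by
           rintro v ⟨hv, hbv⟩
           refine ⟨hSinv v hv, ?_⟩
           have h1 := B2 r v v⁻¹ hrS hv (hSinv v hv)
           rw [mul_inv_cancel, B0', hbv, one_mul] at h1
           exact h1.symm }, fun v => Iff.rfl⟩
    have hTS : T.map π = (S : Subgroup G) := by
      have hle : T.map π ≤ (S : Subgroup G) := by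
        rintro _ ⟨v, hv, rfl⟩
        exact ((hT v).mp hv).1
      have hmem : ∀ v : L, π v ∈ (S : Subgroup G) → b r v = 1 → π v ∈ T.map π :=
        fun v hv hbv => ⟨v, (hT v).mpr ⟨hv, hbv⟩, rfl⟩
      have hxyS := hSmul x y hx hy
      have hbrxy : b r (x * y) = 1 := by rw [B2 r x y hrS hx hy, hrx, hry, mul_one]
      refine eq_of_five (S : Subgroup G) (T.map π) hle hcard 1 (π r) (π x) (π y) (π (x * y))
        (one_mem _) (hmem r hrS (B3 r)) (hmem x hx hrx) (hmem y hy hry) (hmem _ hxyS hbrxy)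
        hr1.symm ?_ ?_ ?_ ?_ ?_ ?_ ?_ ?_ ?_
      · -- 1 ≠ π x
        intro h
        have h1 := B8 x 1 y hx hy (by rw [map_one]; exact h.symm)
        rw [B0] at h1; exact hbxy h1
      · -- 1 ≠ π y
        intro h
        have h1 := B8' x y 1 hx hy (by rw [map_one]; exact h.symm)
        rw [B0'] at h1; exact hbxy h1
      · -- 1 ≠ π (x * y)
        intro h
        have h1 := B8 (x * y) 1 y hxyS hy (by rw [map_one]; exact h.symm)
        rw [B0, B1 x y y hx hy hy, B3, mul_one] at h1; exact hbxy h1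
      · -- π r ≠ π x
        intro h
        have h1 := B8 r x y hrS hy h
        rw [hry] at h1; exact hbxy h1.symm
      · -- π r ≠ π y
        intro h
        have h1 := B8 r y x hrS hx h
        rw [hrx] at h1; exact hbyx h1.symm
      · -- π r ≠ π (x * y)
        intro h
        have h1 := B8 r (x * y) x hrS hx h
        rw [hrx, B1 x y x hx hy hx, B3, one_mul] at h1; exact hbyx h1.symm
      · -- π x ≠ π y
        intro h
        have h1 := B8 x y y hx hy h
        rw [B3] at h1; exact hbxy h1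
      · -- π x ≠ π (x * y)
        intro h
        have h1 := B8 x (x * y) x hx hx h
        rw [B3, B1 x y x hx hy hx, B3, one_mul] at h1; exact hbyx h1.symm
      · -- π y ≠ π (x * y)
        intro h
        have h1 := B8 y (x * y) y hy hy h
        rw [B3, B1 x y y hx hy hy, B3, mul_one] at h1; exact hbxy h1.symm
    intro v hv
    have h1 : π v ∈ T.map π := by rw [hTS]; exact hv
    obtain ⟨v', hv', hvv⟩ := h1
    rw [B8' r v v' hrS hv hvv.symm]
    exact ((hT v').mp hv').2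
  -- fusion: `x` is conjugate to `r`
  have hx1 : π x ≠ 1 := by
    intro h
    have h1 := B8 x 1 y hx hy (by rw [map_one]; exact h)
    rw [B0] at h1; exact hbxy h1
  obtain ⟨n, hn, hnr⟩ := hFus (π r) hrS hr1 (π x) hx hx1
  have hgS : π (lift n * r * (lift n)⁻¹) = π x := by
    rw [map_mul, map_mul, map_inv, hlift]; exact hnr
  have hn' : n⁻¹ ∈ Subgroup.normalizer ((S : Subgroup G) : Set G) := inv_mem hn
  have hvS : π ((lift n)⁻¹ * y * lift n) ∈ (S : Subgroup G) := by
    rw [map_mul, map_mul, map_inv, hlift]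
    have := (Subgroup.mem_normalizer_iff.mp hn' (π y)).mp hy
    simpa using this
  have h1 : b x y = b (lift n * r * (lift n)⁻¹) y :=
    B8 x _ y hx hy hgS.symm
  have h2 : b (lift n * r * (lift n)⁻¹) y = b r ((lift n)⁻¹ * y * lift n) := by
    rw [hb]
    show chiX χ (cm (lift n * r * (lift n)⁻¹) y) = chiX χ (cm r ((lift n)⁻¹ * y * lift n))
    rw [cm_conj (lift n) r y (hcen _ _ hrS hvS)]
  rw [h2, hrad _ hvS] at h1
  exact hbxy h1

/-- [MULT] -/
theorem pkgMult : PkgMult.{u} := by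
  intro G _ _ hS8 hFus L _ _ Z _ hperf hZc hZ2 ⟨e⟩
  classical
  haveI : Fact (Nat.Prime 2) := ⟨Nat.prime_two⟩
  obtain ⟨π, hπ⟩ : ∃ π : L →* G, π = e.toMonoidHom.comp (QuotientGroup.mk' Z) := ⟨_, rfl⟩
  have hsurj : Function.Surjective π := by
    rw [hπ]; exact e.surjective.comp (QuotientGroup.mk'_surjective Z)
  have hker : ∀ g : L, π g = 1 ↔ g ∈ Z := by
    intro g
    rw [hπ]
    show e (QuotientGroup.mk' Z g) = 1 ↔ g ∈ Z
    rw [MulEquiv.map_eq_one_iff, QuotientGroup.mk'_apply, QuotientGroup.eq_one_iff]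
  obtain ⟨S⟩ : Nonempty (Sylow 2 G) := inferInstance
  obtain ⟨hcard, hexp⟩ := hS8 S
  -- the preimage of `S` is abelian
  have hab : ∀ x y : L, π x ∈ (S : Subgroup G) → π y ∈ (S : Subgroup G) → x * y = y * x := by
    intro x y hx hy
    by_contra hne
    have hcmZ : cm x y ∈ Z := by
      rw [← hker]
      unfold cm
      rw [map_mul, map_mul, map_mul, map_inv, map_inv]
      have h1 := hexp _ hx
      have h2 := hexp _ hy
      have h3 := hexp _ (mul_mem hx hy)
      have ha' : (π x)⁻¹ = π x := by rw [inv_eq_iff_mul_eq_one, ← sq, h1]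
      have hb' : (π y)⁻¹ = π y := by rw [inv_eq_iff_mul_eq_one, ← sq, h2]
      rw [ha', hb', mul_assoc, ← sq, h3]
    have hc1 : (⟨cm x y, hZc hcmZ⟩ : ↥(Subgroup.center L)) ≠ 1 := by
      intro h
      have h1 : cm x y = 1 := congrArg Subtype.val h
      apply hne
      unfold cm at h1
      have h2 : x * y = x * y * x⁻¹ * y⁻¹ * (y * x) := by group
      rw [h2, h1, one_mul]
    letI : CommGroup ↥(Subgroup.center L) :=
      { (inferInstance : Group ↥(Subgroup.center L)) with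
        mul_comm := fun a b => Subtype.ext (Subgroup.mem_center_iff.mp b.2 a.1) }
    haveI : NeZero (Monoid.exponent ↥(Subgroup.center L)) :=
      ⟨Monoid.exponent_ne_zero_of_finite⟩
    obtain ⟨χ, hχ⟩ := CommGroup.exists_apply_ne_one_of_hasEnoughRootsOfUnity
      ↥(Subgroup.center L) ℂ hc1
    have h1 := form_trivial π hsurj Z hker hZc S hcard hexp (hFus S) χ x y hx hy
    apply hχ
    unfold chiX at h1
    rw [dif_pos (hZc hcmZ)] at h1
    exact h1
  -- transfer
  rw [Subgroup.eq_bot_iff_forall]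
  intro z hz
  by_contra hz1
  obtain ⟨Sh, hSh⟩ : ∃ Sh : Subgroup L, Sh = (S : Subgroup G).comap π := ⟨_, rfl⟩
  have hmem : ∀ g : L, g ∈ Sh ↔ π g ∈ (S : Subgroup G) := by
    intro g; rw [hSh]; exact Subgroup.mem_comap
  have hzS : z ∈ Sh := by
    rw [hmem, (hker z).mpr hz]; exact one_mem _
  letI : CommGroup ↥Sh :=
    { (inferInstance : Group ↥Sh) with
      mul_comm := fun a b => Subtype.ext (hab a.1 b.1 ((hmem _).mp a.2) ((hmem _).mp b.2)) }
  haveI : NeZero (Monoid.exponent ↥Sh) := ⟨Monoid.exponent_ne_zero_of_finite⟩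
  have hzne : (⟨z, hzS⟩ : ↥Sh) ≠ 1 := fun h => hz1 (congrArg Subtype.val h)
  obtain ⟨φ, hφ⟩ := CommGroup.exists_apply_ne_one_of_hasEnoughRootsOfUnity ↥Sh ℂ hzne
  have hzc := hZc hz
  have hkey : ∀ (k : ℕ) (g₀ : L), g₀⁻¹ * z ^ k * g₀ ∈ Sh → g₀⁻¹ * z ^ k * g₀ = z ^ k := by
    intro k g₀ _
    have h1 := Subgroup.mem_center_iff.mp (Subgroup.pow_mem _ hzc k) g₀
    rw [mul_assoc, ← h1, inv_mul_cancel_left]
  have ht := MonoidHom.transfer_eq_pow φ z hkey
  have hker' : z ∈ (MonoidHom.transfer φ).ker :=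
    Abelianization.commutator_subset_ker _ (hperf ▸ Subgroup.mem_top z)
  rw [MonoidHom.mem_ker] at hker'
  rw [hker'] at ht
  have hpow : φ ⟨z, hzS⟩ ^ Sh.index = 1 := by
    rw [← map_pow]; exact ht.symm
  obtain ⟨k, hk⟩ := hZ2 ⟨z, hz⟩
  have hzk : z ^ 2 ^ k = 1 := congrArg Subtype.val hk
  have hpow2 : φ ⟨z, hzS⟩ ^ 2 ^ k = 1 := by
    rw [← map_pow]
    have : (⟨z, hzS⟩ : ↥Sh) ^ 2 ^ k = 1 := Subtype.ext hzk
    rw [this, map_one]
  have hidx : Sh.index = (S : Subgroup G).index := by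
    rw [hSh]; exact Subgroup.index_comap_of_surjective _ hsurj
  have hodd : ¬ 2 ∣ Sh.index := by rw [hidx]; exact S.not_dvd_index
  have hcop : Nat.Coprime Sh.index (2 ^ k) :=
    Nat.Coprime.pow_right k ((Nat.Prime.coprime_iff_not_dvd Nat.prime_two).mpr hodd).symm
  have h1 := pow_gcd_eq_one.mpr ⟨hpow, hpow2⟩
  rw [Nat.Coprime.gcd_eq_one hcop, pow_one] at h1
  exact hφ h1

end Cfsg.Agent.Lib.Helper38.JR
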